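import Cfsg.Agent.Fi24.RepHom
import Cfsg.Agent.Fi24.Letters

/-! The generators `a` and `l` of the presented Fi24 differ. -/

namespace Cfsg.Agent.Fi24

theorem hal_main : fLet 3 ≠ fLet 1 := fun h =>
  gen_a_ne_l ((fLet_code .a).symm.trans (h.trans (fLet_code .l)))

end Cfsg.Agent.Fi24
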