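import Cfsg.Agent.Fi24.He
import Cfsg.Agent.Fi24.Trans
import Cfsg.Agent.CosetEnum.FiTwentyThree.Main

/-!
The largest Fischer 3-transposition group realised by the presentation, and the subgroup of index 306936.
-/

set_option autoImplicit false

namespace Cfsg.Agent.Fi24

open Cfsg.Agent.CosetCert Cfsg.Agent.CosetEnum

open Cfsg.Spor.Fi24 in
/-- The subgroup generated by the words of all generators but `k`. -/
theorem words_map_eq :
    (Subgroup.closure ({a, b, c, d, e, f, g, h, i, j, l} : Set (FreeGroup Gen))).map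
      (PresentedGroup.mk (Cfsg.Spor.coxRelators edges ∪ {r | r ∈ extra})) = hSub := by
  rw [MonoidHom.map_closure, hSub]
  congr 1
  ext x
  constructor
  · rintro ⟨w, hw, rfl⟩
    simp only [Set.mem_insert_iff, Set.mem_singleton_iff] at hw
    rcases hw with rfl | rfl | rfl | rfl | rfl | rfl | rfl | rfl | rfl | rfl | rfl
    · exact ⟨code .a, (by decide : code .a ∈ hLetters), fLet_code .a⟩
    · exact ⟨code .b, (by decide : code .b ∈ hLetters), fLet_code .b⟩
    · exact ⟨code .c, (by decide : code .c ∈ hLetters), fLet_code .c⟩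
    · exact ⟨code .d, (by decide : code .d ∈ hLetters), fLet_code .d⟩
    · exact ⟨code .e, (by decide : code .e ∈ hLetters), fLet_code .e⟩
    · exact ⟨code .f, (by decide : code .f ∈ hLetters), fLet_code .f⟩
    · exact ⟨code .g, (by decide : code .g ∈ hLetters), fLet_code .g⟩
    · exact ⟨code .h, (by decide : code .h ∈ hLetters), fLet_code .h⟩
    · exact ⟨code .i, (by decide : code .i ∈ hLetters), fLet_code .i⟩
    · exact ⟨code .j, (by decide : code .j ∈ hLetters), fLet_code .j⟩
    · exact ⟨code .l, (by decide : code .l ∈ hLetters), fLet_code .l⟩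
  · rintro ⟨m, hm, rfl⟩
    obtain ⟨y, hy, rfl⟩ : ∃ y : Gen, y ≠ .k ∧ code y = m := by
      have hm' : m ∈ hLetters := hm
      simp only [hLetters, List.mem_cons, List.not_mem_nil, or_false] at hm'
      rcases hm' with rfl | rfl | rfl | rfl | rfl | rfl | rfl | rfl | rfl | rfl | rfl
      all_goals first
        | exact ⟨.l, by decide, rfl⟩ | exact ⟨.a, by decide, rfl⟩ | exact ⟨.b, by decide, rfl⟩
        | exact ⟨.c, by decide, rfl⟩ | exact ⟨.d, by decide, rfl⟩ | exact ⟨.e, by decide, rfl⟩
        | exact ⟨.f, by decide, rfl⟩ | exact ⟨.g, by decide, rfl⟩ | exact ⟨.j, by decide, rfl⟩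
        | exact ⟨.h, by decide, rfl⟩ | exact ⟨.i, by decide, rfl⟩
    refine ⟨FreeGroup.of y, ?_, ?_⟩
    · cases y
      case k => exact absurd rfl hy
      all_goals simp
    · rw [fLet_code]; rfl

section

variable (hal : fLet 3 ≠ fLet 1)
include hal

theorem isFi23_theta_range : Cfsg.IsFi23 theta.range := by
  obtain ⟨hs, hc⟩ := CosetEnum.FiTwentyThree.main
  let e : G23 ≃* theta.range := MonoidHom.ofInjective (theta_injective hal)
  haveI := hs
  haveI : Nontrivial theta.range := e.symm.toEquiv.nontrivial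
  exact ⟨IsSimpleGroup.isSimpleGroup_of_surjective e.toMonoidHom e.surjective,
    (Nat.card_congr e.toEquiv.symm).trans hc⟩

theorem isFi23_map {H : Type} [Group H] (f : theta.range ≃* H) : Cfsg.IsFi23 H := by
  obtain ⟨hs, hc⟩ := isFi23_theta_range hal
  haveI := hs
  haveI : Nontrivial H := f.symm.toEquiv.nontrivial
  exact ⟨IsSimpleGroup.isSimpleGroup_of_surjective f.toMonoidHom f.surjective,
    (Nat.card_congr f.toEquiv.symm).trans hc⟩

theorem centralizer_card_fi23 {d : G24} (hd : d ∈ transClass) :
    Nat.card (Subgroup.centralizer ({d} : Set G24)) = 2 * 4089470473293004800 ∧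
      ∃ K : Subgroup G24, K ≤ Subgroup.centralizer ({d} : Set G24) ∧ Cfsg.IsFi23 K := by
  obtain ⟨g, -, hC⟩ := centralizer_class hal hd
  rw [hC]
  refine ⟨?_, theta.range.map (MulAut.conj g).toMonoidHom, Subgroup.map_mono ?_,
    isFi23_map hal (Subgroup.equivMapOfInjective theta.range _ (MulAut.conj g).injective)⟩
  · rw [← Nat.card_congr (Subgroup.equivMapOfInjective hSub (MulAut.conj g).toMonoidHom
      (MulAut.conj g).injective).toEquiv]
    exact card_hSub hal
  · rintro _ ⟨y, rfl⟩
    exact theta_mem y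

/-- **The largest 3-transposition group of Fischer.** -/
theorem realization : ∃ (G : Type) (_ : Group G) (_ : Finite G),
    Nat.card G = 2 * 1255205709190661721292800 ∧
    ∃ D : Set G, Cfsg.IsThreeTranspositionClass D ∧ Nat.card D = 306936 ∧
      (∀ d ∈ D, Nat.card (Subgroup.centralizer ({d} : Set G)) = 2 * 4089470473293004800 ∧
        ∃ K : Subgroup G, K ≤ Subgroup.centralizer ({d} : Set G) ∧ Cfsg.IsFi23 K) ∧
      ∃ H : Subgroup G, H.index = 2 ∧ Cfsg.IsFi24' H ∧ (∃ K : Subgroup H, Cfsg.IsFi23 K) ∧
        (∃ K : Subgroup H, Cfsg.IsHe K) := by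
  refine ⟨G24, inferInstance, finite_g24, card_g24 hal, transClass, transClass_isClass, card_class hal,
    fun d hd => centralizer_card_fi23 hal hd, commutator G24, ?_, isFi24_commutator hal,
    ⟨theta.range.subgroupOf (commutator G24),
      isFi23_map hal (Subgroup.subgroupOfEquivOfLe theta_range_le).symm⟩, exists_he hal⟩
  rw [commutator_eq]
  exact index_parity_ker

end

end Cfsg.Agent.Fi24
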